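import Cfsg.Agent.H889.Enum.LS
import Cfsg.Agent.H252.EN.TabChkC
import Cfsg.Agent.H313.EPX.Eng
import Cfsg.Agent.H226.EX.Glue
import Cfsg.Agent.H542.EPX.Cells
import Cfsg.Agent.S0254
import Cfsg.Agent.S0822

/-!
# S5745, the cell `f4.cross` (helper313)

`f4_cross` : `Cross p F₄(F)` from the rows `RowsF4 F` (the pairs `(T, q)` left by the tables of helper252) and the general
inputs `UbK` (the bound of helper59 / helper252), `OrderTable`, `IsKnownSimple'`.
-/

set_option autoImplicit false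

namespace Cfsg.Agent.H313.EPX

open Cfsg Cfsg.Agent.OrdDiv Cfsg.Agent.H902 Cfsg.Agent.H902.Names Cfsg.Agent.H290.ElReg Cfsg.Agent.H290.ElTab
open Cfsg.Agent.H209.EPX Cfsg.Agent.H542.EPX Cfsg.Agent.H252.EN

/-- the bound `Ub` for `k = 1` (`H252.EN.ub_eps`) -/
def UbK : Prop :=
  ∀ (G : Type) [Group G] [Finite G] [IsSimpleGroup G] (H N : Subgroup G) (T : Type) [Group T] [Finite T]
    (e : N ≃* (Fin 1 → T)), EPS H N e → ∀ B : ℕ, Nat.card (MulAut T) ∣ B → Ub B (Nat.card G)

/-- the known simple groups at `Type` -/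
def AllK : Prop := ∀ (X : Type) [Group X] [Finite X], IsSimpleGroup X → IsKnownSimple' X

/-- a row : the socle `T` satisfies `P` -/
def Row1 (G : Type) [Group G] (P : ∀ (T : Type) [Group T], Prop) : Prop :=
  ∀ (H N : Subgroup G) (T : Type) [Group T] [Finite T] (e : N ≃* (Fin 1 → T)), EPS H N e → P T → False

/-- the rows of `F₄(q)`, `k = 1`, cross characteristic -/
structure RowsF4 (F : Type) [Field F] [Fintype F] : Prop where
  /-- S5926 -/
  alt : ∀ n, 5 ≤ n → n ≠ 6 → Row1 ↥(Lie.chevF4.group F) fun T _ => Nonempty (T ≃* alternatingGroup (Fin n))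
  l2 : Fintype.card F = 2 → ∀ s, s = 25 ∨ s = 27 ∨ s = 49 →
    Row1 ↥(Lie.chevF4.group F) fun T _ => OrdDiv.Real (.psl 2 s) T
  l43 : Fintype.card F = 2 → Row1 ↥(Lie.chevF4.group F) fun T _ => OrdDiv.Real (.psl 4 3) T
  u43 : Fintype.card F = 2 → Row1 ↥(Lie.chevF4.group F) fun T _ => OrdDiv.Real (.psu 4 3) T
  g23 : Fintype.card F = 2 → Row1 ↥(Lie.chevF4.group F) fun T _ => OrdDiv.Real (.g2 3) T
  s82 : Fintype.card F = 9 → Row1 ↥(Lie.chevF4.group F) fun T _ => OrdDiv.Real (.psp 4 2) T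
  o8 : Fintype.card F = 3 ∨ Fintype.card F = 5 → Row1 ↥(Lie.chevF4.group F) fun T _ => OrdDiv.Real (.oplus 4 2) T
  l62 : Fintype.card F = 5 → Row1 ↥(Lie.chevF4.group F) fun T _ => OrdDiv.Real (.psl 6 2) T
  g24 : Fintype.card F = 3 ∨ Fintype.card F = 5 → Row1 ↥(Lie.chevF4.group F) fun T _ => OrdDiv.Real (.g2 4) T
  td42 : Fintype.card F = 3 ∨ Fintype.card F = 5 → Row1 ↥(Lie.chevF4.group F) fun T _ => OrdDiv.Real (.td4 2) T
  tits : Fintype.card F = 2 ∨ Fintype.card F = 3 ∨ Fintype.card F = 4 →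
    Row1 ↥(Lie.chevF4.group F) fun T _ => Lie.IsoTits T

section

variable {F : Type} [Field F] [Fintype F] {p : ℕ} [hp : Fact p.Prime] [CharP F p] [IsSimpleGroup ↥(Lie.chevF4.group F)]

omit hp [IsSimpleGroup ↥(Lie.chevF4.group F)] in
/-- the order of `F₄(q)` -/
theorem real_f4 (tab : OrderTable.{0}) (hp : p.Prime) :
    ∃ f, Fintype.card F = p ^ f ∧ Art.Real .F4 p f (Nat.card ↥(Lie.chevF4.group F)) := by
  have := Fact.mk hp
  obtain ⟨f, -, hF⟩ := FiniteField.card F p
  refine ⟨f, hF, hp, f.pos, trivial, ?_⟩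
  rw [tab.f4 F _ hF]
  change 1 * _ = (p ^ (f : ℕ)) ^ 24 * (_ * _ * _ * _)
  ring

omit hp [Field F] [Fintype F] [CharP F p] [IsSimpleGroup ↥(Lie.chevF4.group F)] in
theorem exists_field {r k : ℕ} (hr : r.Prime) (hk : k ≠ 0) :
    ∃ (L : Type) (_ : Field L) (_ : Fintype L), Fintype.card L = r ^ k := by
  have := Fact.mk hr
  have : Fintype (GaloisField r k) := Fintype.ofFinite _
  refine ⟨GaloisField r k, inferInstance, this, ?_⟩
  rw [← Nat.card_eq_fintype_card, GaloisField.card r k hk]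

set_option maxRecDepth 100000 in
theorem ou_eq : ((reg 52).all fun x => ou x.1 x.2.1 x.2.2 == ouN x.1 x.2.1 x.2.2) = true := by decide +kernel

set_option maxRecDepth 100000 in
theorem mem_reg_six : (Art.Sh.L 2, (3, 2)) ∈ reg 52 := by decide +kernel

/-- the bound for a name of the region -/
theorem ub_reg (hub : UbK) {G : Type} [Group G] [Finite G] [IsSimpleGroup G] {H N : Subgroup G} {T : Type} [Group T]
    [Finite T] {e : N ≃* (Fin 1 → T)} (h : EPS H N e) {g : Grp} {X : Art.Sh} {l a : ℕ} (hg : IsLie g X l a)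
    (hR : OrdDiv.Real g T) (hA : Art.Real X l a (Nat.card T)) (hr : (X, (l, a)) ∈ reg 52) :
    Ub (ouN X l a * Nat.card T) (Nat.card G) := by
  have hs : IsSimpleGroup T := h.simple
  have hna : ¬ ∀ a b : T, a * b = b * a := by
    obtain ⟨a, b, hab⟩ := h.nab
    exact fun hc => hab (hc a b)
  have h1 := List.all_eq_true.1 ou_eq _ hr
  rw [beq_iff_eq] at h1
  refine hub G H N T e h _ ?_
  rw [← h1, aut_eq hna hg hR hA]

/-- `|T|` divides `|G|` -/
theorem dvd_G {G : Type} [Group G] [Finite G] {H N : Subgroup G} {T : Type} [Group T]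
    {e : N ≃* (Fin 1 → T)} (h : EPS H N e) : Nat.card T ∣ Nat.card G :=
  (H226.EX.dvd_card h).trans (Subgroup.card_subgroup_dvd_card H)

/-- **The cell `f4.cross`.** -/
theorem f4_cross (hub : UbK) (hK : AllK) (tab : OrderTable.{0}) (R : RowsF4 F) :
    Cross p ↥(Lie.chevF4.group F) := by
  intro H N T _ e h hsp hL
  have hT : Finite T := Finite.of_injective _ (N.subtype_injective.comp e.symm.injective |>.comp
    (MulEquiv.funUnique (Fin 1) T).symm.injective)
  have hs : IsSimpleGroup T := h.simple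
  have hna : ¬ ∀ a b : T, a * b = b * a := by
    obtain ⟨a, b, hab⟩ := h.nab
    exact fun hc => hab (hc a b)
  have hinj : Function.Injective (N.subtype.comp ((e.trans (MulEquiv.funUnique (Fin 1) T)).symm.toMonoidHom)) :=
    N.subtype_injective.comp (e.trans (MulEquiv.funUnique (Fin 1) T)).symm.injective
  obtain ⟨f, hF, hG⟩ := real_f4 (F := F) tab hp.out
  have hY : Art.Sh.F4 ∈ Ys := by decide
  have key : ∀ (g : Grp) (X : Art.Sh) (l a : ℕ), IsLie g X l a → OrdDiv.Real g T → Art.Real X l a (Nat.card T) →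
      l ≠ p → (X, (l, a)) ∈ reg 52 → ((X, (l, a)), Fintype.card F) ∈ alF4 := by
    intro g X l a hg hR hA hlp hr
    rw [hF]
    exact chk_spec hY chk_f4 hA hr hG hlp (ub_reg hub h hg hR hA hr) (dvd_G h)
  rcases cand tab (n := 52) (by norm_num) (F := F) (p := p) (hK T hs) hna
    (H889.Enum.fth_of (H889.Enum.fth_f4 F) hinj) hL with ⟨m, hm, h1⟩ | h1 | h1 | ⟨g, X, l, a, hg, hR, hA, hlp, hr⟩
  · -- alternating groups
    by_cases h6 : m = 6
    · subst h6
      obtain ⟨i⟩ := h1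
      have h9 : Nat.Prime 3 := Nat.prime_three
      obtain ⟨L, iL, iL', hc9⟩ := exists_field h9 two_ne_zero
      obtain ⟨j⟩ := S0254.result (F := L) (by rw [hc9]; norm_num)
      have hR : OrdDiv.Real (.psl 2 (3 ^ 2)) T := ⟨L, iL, iL', hc9, ⟨i.trans j.symm⟩⟩
      have hA : Art.Real (.L 2) 3 2 (Nat.card T) := by
        rw [Nat.card_congr (i.trans j.symm).toEquiv]
        exact psl_real h9 (by norm_num) hc9 le_rfl (by norm_num)
      have hlp : 3 ≠ p := by
        rintro rfl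
        exact hL (lie_char (.psl 2 3 2) hR hA)
      have h2 := key _ _ _ _ (.psl 2 3 2) hR hA hlp mem_reg_six
      revert h2
      simp [alF4]
    · exact R.alt m hm h6 H N T e h h1
  · -- the Tits group
    have h2 : Nat.card T = 17971200 := tab.spor T (.tits, 17971200) (by decide) h1
    have h3 := hub _ H N T e h (2 * 17971200) (aut_tits tab hna h1)
    have h4 := chkT_spec (lab := ()) hY (show chkT .F4 () [((), 2), ((), 3), ((), 4)] 17971200 0 35942400 = true from
      chkTi_f4) hG (by rw [Nat.mod_zero]; exact pow_ne_zero _ hp.out.ne_zero) (by norm_num at h3; exact h3)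
      (by rw [← h2]; exact dvd_G h)
    rw [← hF] at h4
    refine R.tits ?_ H N T e h h1
    simpa using h4
  · exact hsp h1
  · have h2 := key g X l a hg hR hA hlp hr
    simp only [alF4, List.mem_cons, List.not_mem_nil, or_false, Prod.mk.injEq] at h2
    rcases h2 with ⟨⟨rfl, rfl, rfl⟩, h3⟩ | ⟨⟨rfl, rfl, rfl⟩, h3⟩ | ⟨⟨rfl, rfl, rfl⟩, h3⟩ | ⟨⟨rfl, rfl, rfl⟩, h3⟩ |
      ⟨⟨rfl, rfl, rfl⟩, h3⟩ | ⟨⟨rfl, rfl, rfl⟩, h3⟩ | ⟨⟨rfl, rfl, rfl⟩, h3⟩ | ⟨⟨rfl, rfl, rfl⟩, h3⟩ |
      ⟨⟨rfl, rfl, rfl⟩, h3⟩ | ⟨⟨rfl, rfl, rfl⟩, h3⟩ | ⟨⟨rfl, rfl, rfl⟩, h3⟩ | ⟨⟨rfl, rfl, rfl⟩, h3⟩ |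
      ⟨⟨rfl, rfl, rfl⟩, h3⟩ | ⟨⟨rfl, rfl, rfl⟩, h3⟩ | ⟨⟨rfl, rfl, rfl⟩, h3⟩
    · cases hg
      exact R.l2 h3 27 (by norm_num) H N T e h (by norm_num at hR; exact hR)
    · cases hg
      exact R.l2 h3 25 (by norm_num) H N T e h (by norm_num at hR; exact hR)
    · cases hg
      exact R.l2 h3 49 (by norm_num) H N T e h (by norm_num at hR; exact hR)
    · -- `PSp₄(3) ≅ PSU₄(2)`
      have hp2 : p = 2 := by
        have h4 : p ∣ 2 := by
          rw [← h3, hF]
          exact dvd_pow_self p (by have := hG.hf; omega)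
        exact (Nat.prime_dvd_prime_iff_eq hp.out Nat.prime_two).1 h4
      subst hp2
      cases hg with
      | psp n p f =>
        obtain ⟨K, i1, i2, hK, ⟨i⟩⟩ := hR
        obtain ⟨L, iL, iL', hc4⟩ := exists_field Nat.prime_two two_ne_zero
        obtain ⟨j⟩ := S0822.result (F := L) (K := K) (by rw [hc4]; norm_num) (by rw [hK]; norm_num)
        exact hL (Or.inr (Or.inr (Or.inl ⟨L, iL, iL', H364.OutLie.charP_of_card Nat.prime_two (by norm_num) hc4, 4, 2,
          hc4, by norm_num, by norm_num, ⟨i.trans j.symm⟩⟩)))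
      | oodd n p f hn ho => omega
    · cases hg
      exact R.l43 h3 H N T e h (by norm_num at hR; exact hR)
    · cases hg with
      | psp n p f => exact R.s82 h3 H N T e h (by norm_num at hR; exact hR)
      | oodd n p f hn ho => exact absurd ho (by decide)
    · cases hg
      exact R.u43 h3 H N T e h (by norm_num at hR; exact hR)
    · cases hg
      exact R.o8 (Or.inl h3) H N T e h (by norm_num at hR; exact hR)
    · cases hg
      exact R.o8 (Or.inr h3) H N T e h (by norm_num at hR; exact hR)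
    · cases hg
      exact R.l62 h3 H N T e h (by norm_num at hR; exact hR)
    · cases hg
      exact R.g24 (Or.inl h3) H N T e h (by norm_num at hR; exact hR)
    · cases hg
      exact R.g24 (Or.inr h3) H N T e h (by norm_num at hR; exact hR)
    · cases hg
      exact R.g23 h3 H N T e h (by norm_num at hR; exact hR)
    · cases hg
      exact R.td42 (Or.inl h3) H N T e h (by norm_num at hR; exact hR)
    · cases hg
      exact R.td42 (Or.inr h3) H N T e h (by norm_num at hR; exact hR)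

end

end Cfsg.Agent.H313.EPX
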